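import Mathlib
import Cfsg.Agent.Lib.Helper49.HJO.Defs

/-!
# Project HJO (S3313), package [NV]

For each involution `v ∈ H \ Q` there are exactly 8 elements `u ∈ Q` with `u² = 1` and
`[u,v]² = z`.
-/

set_option autoImplicit false

namespace Cfsg.Agent.Lib.Helper80.HJO

open Cfsg.Agent.Lib.Helper49.HJO

universe u

/-- A subgroup `L ≤ D` with `|D| ≤ 2|L|` and `x' ∈ D \ L`: every element of `D` is in `L` or in
`x' L`. -/
theorem nv_index_two_dich {G : Type u} [Group G] [Finite G] (L D : Subgroup G) (hLD : L ≤ D)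
    (hcard : Nat.card D ≤ 2 * Nat.card L) (x' : G) (hx'D : x' ∈ D) (hx'L : x' ∉ L) :
    ∀ x ∈ D, x ∈ L ∨ x'⁻¹ * x ∈ L := by
  intro x hx
  by_contra hcon
  push Not at hcon
  obtain ⟨h1, h2⟩ := hcon
  have hidx : (L.subgroupOf D).index = 2 := by
    have h3 := Subgroup.card_mul_index (L.subgroupOf D)
    have h4 : Nat.card (L.subgroupOf D) = Nat.card L :=
      Nat.card_congr (Subgroup.subgroupOfEquivOfLe hLD).toEquiv
    have h5 : (L.subgroupOf D).index ≠ 1 := by
      intro h
      rw [Subgroup.index_eq_one] at h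
      have h' : (⟨x', hx'D⟩ : D) ∈ L.subgroupOf D := by rw [h]; trivial
      exact hx'L (Subgroup.mem_subgroupOf.mp h')
    have h6 : (L.subgroupOf D).index ≠ 0 := Subgroup.index_ne_zero_of_finite
    rw [h4] at h3
    have h7 : (L.subgroupOf D).index ≤ 2 := by
      by_contra h8
      push Not at h8
      have h9 : Nat.card L * 3 ≤ Nat.card L * (L.subgroupOf D).index :=
        Nat.mul_le_mul_left _ h8
      have h10 : 0 < Nat.card L := Nat.card_pos
      omega
    omega
  have h8 := Subgroup.mul_mem_iff_of_index_two hidx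
    (a := (⟨x'⁻¹, D.inv_mem hx'D⟩ : D)) (b := ⟨x, hx⟩)
  have ha : (⟨x'⁻¹, D.inv_mem hx'D⟩ : D) ∉ L.subgroupOf D := by
    intro h
    exact hx'L ((L.inv_mem_iff).mp (Subgroup.mem_subgroupOf.mp h))
  have hb : (⟨x, hx⟩ : D) ∉ L.subgroupOf D := by
    intro h
    exact h1 (Subgroup.mem_subgroupOf.mp h)
  have hab : (⟨x'⁻¹, D.inv_mem hx'D⟩ : D) * ⟨x, hx⟩ ∈ L.subgroupOf D :=
    h8.mpr ⟨fun h => (ha h).elim, fun h => (hb h).elim⟩
  exact h2 (Subgroup.mem_subgroupOf.mp hab)

/-- `cm` of a product. -/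
theorem nv_cm_mul {G : Type u} [Group G] (v x l : G) (hvv : v * v = 1) :
    cm v (x * l) = l⁻¹ * cm v x * (v * l * v) := by
  have hv : v⁻¹ = v := inv_eq_of_mul_eq_one_right hvv
  have h : (x * l)⁻¹ * (v * (x * l) * v⁻¹) = l⁻¹ * (x⁻¹ * (v * x * v⁻¹)) * (v * l * v⁻¹) := by
    group
  rw [hv] at h
  exact h

/-- `cm` is invariant under left multiplication by an element commuting with `v`. -/
theorem nv_cm_comm_mul {G : Type u} [Group G] (v a x : G) (h : v * a = a * v) :
    cm v (a * x) = cm v x := by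
  unfold cm
  have h1 : v * (a * x) * v = a * (v * x * v) := by
    calc v * (a * x) * v = (v * a) * x * v := by group
      _ = (a * v) * x * v := by rw [h]
      _ = a * (v * x * v) := by group
  rw [h1]
  group

/-- The hypotheses used for [NV]. -/
structure NVCtx {G : Type u} [Group G] (Q : Subgroup G) (z v : G) : Prop where
  z_ne : z ≠ 1
  z_sq : z * z = 1
  zQ : z ∈ Q
  zcQ : ∀ q ∈ Q, q * z = z * q
  zv : v * z = z * v
  vv : v * v = 1
  sq : ∀ x ∈ Q, x * x = 1 ∨ x * x = z
  comm : ∀ x ∈ Q, ∀ y ∈ Q, x * y = y * x ∨ x * y = z * (y * x)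
  cen : ∀ x ∈ Q, (∀ y ∈ Q, x * y = y * x) → x = 1 ∨ x = z
  cardQ : Nat.card Q = 32
  cardC : Nat.card {q : G // q ∈ Q ∧ v * q = q * v} = 4
  csq : ∀ q ∈ Q, v * q = q * v → q * q = 1
  lv : LVFacts Q z v

theorem pkgNV_aux {G : Type u} [Group G] [Finite G] (Q : Subgroup G) (z v : G)
    (c : NVCtx Q z v) :
    Nat.card {u : G // u ∈ Q ∧ u * u = 1 ∧ cm v u * cm v u = z} = 8 := by
  classical
  have : Fintype G := Fintype.ofFinite G
  obtain ⟨hz_ne, hzz, hzQ, hzcQ, hzv, hvv, hsq, hcomm, hcen, hcardQ, hcardC, hcsq, lv⟩ := c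
  have hzinv : z⁻¹ = z := inv_eq_of_mul_eq_one_right hzz
  have hvinv : v⁻¹ = v := inv_eq_of_mul_eq_one_right hvv
  have hsqsq : ∀ x ∈ Q, x * x * (x * x) = 1 := by
    intro x hx
    rcases hsq x hx with h | h
    · rw [h, one_mul]
    · rw [h, hzz]
  have hzmul : ∀ w ∈ Q, z * w * (z * w) = w * w := by
    intro w hw
    calc z * w * (z * w) = z * (w * z) * w := by group
      _ = z * (z * w) * w := by rw [hzcQ w hw]
      _ = (z * z) * (w * w) := by group
      _ = w * w := by rw [hzz, one_mul]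
  -- C ⊆ L
  have hCL : ∀ q ∈ Q, v * q = q * v → InL Q v q := by
    intro q hq hqv
    refine ⟨hq, ?_⟩
    have h1 : q⁻¹ = q := inv_eq_of_mul_eq_one_right (hcsq q hq hqv)
    rw [h1, hqv, mul_assoc, hvv, mul_one]
  have h1C : (1 : G) ∈ Q ∧ v * 1 = 1 * v := ⟨Q.one_mem, by rw [mul_one, one_mul]⟩
  have hzC : z ∈ Q ∧ v * z = z * v := ⟨hzQ, hzv⟩
  -- the finset C
  obtain ⟨Cfin, hCfin⟩ : ∃ C : Finset G, C = Finset.univ.filter (fun q => q ∈ Q ∧ v * q = q * v) :=
    ⟨_, rfl⟩
  have hCmem : ∀ q, q ∈ Cfin ↔ (q ∈ Q ∧ v * q = q * v) := by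
    intro q; rw [hCfin, Finset.mem_filter]; simp
  have hCcard : Cfin.card = 4 := by
    rw [hCfin, ← hcardC, Nat.card_eq_fintype_card, Fintype.card_subtype]
  obtain ⟨z1, hz1C, hz1not⟩ : ∃ z1 ∈ Cfin, z1 ∉ ({1, z} : Finset G) := by
    apply Finset.exists_mem_notMem_of_card_lt_card
    rw [hCcard]
    calc ({1, z} : Finset G).card ≤ 2 := Finset.card_le_two
      _ < 4 := by norm_num
  have hz1Q : z1 ∈ Q := ((hCmem z1).mp hz1C).1
  have hz1v : v * z1 = z1 * v := ((hCmem z1).mp hz1C).2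
  have hz1_1 : z1 ≠ 1 := fun h => hz1not (by simp [h])
  have hz1_z : z1 ≠ z := fun h => hz1not (by simp [h])
  have hz1sq : z1 * z1 = 1 := hcsq z1 hz1Q hz1v
  have hz1inv : z1⁻¹ = z1 := inv_eq_of_mul_eq_one_right hz1sq
  have hCenum : ∀ a ∈ Q, v * a = a * v → a = 1 ∨ a = z ∨ a = z1 ∨ a = z * z1 := by
    intro a ha hav
    have hW : ({1, z, z1, z * z1} : Finset G) ⊆ Cfin := by
      intro w hw
      simp only [Finset.mem_insert, Finset.mem_singleton] at hw
      rw [hCmem]
      rcases hw with h | h | h | h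
      · rw [h]; exact h1C
      · rw [h]; exact hzC
      · rw [h]; exact ⟨hz1Q, hz1v⟩
      · rw [h]
        refine ⟨Q.mul_mem hzQ hz1Q, ?_⟩
        calc v * (z * z1) = (v * z) * z1 := (mul_assoc _ _ _).symm
          _ = (z * v) * z1 := by rw [hzv]
          _ = z * (v * z1) := mul_assoc _ _ _
          _ = z * (z1 * v) := by rw [hz1v]
          _ = z * z1 * v := (mul_assoc _ _ _).symm
    have hWc : ({1, z, z1, z * z1} : Finset G).card = 4 := by
      rw [Finset.card_insert_of_notMem, Finset.card_insert_of_notMem, Finset.card_pair]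
      · intro h
        exact hz_ne (right_eq_mul.mp h)
      · simp only [Finset.mem_insert, Finset.mem_singleton, not_or]
        refine ⟨fun h => hz1_z h.symm, fun h => hz1_1 (left_eq_mul.mp h)⟩
      · simp only [Finset.mem_insert, Finset.mem_singleton, not_or]
        refine ⟨fun h => hz_ne h.symm, fun h => hz1_1 h.symm, fun h => ?_⟩
        have h2 : z1 = z⁻¹ := eq_inv_of_mul_eq_one_right h.symm
        rw [hzinv] at h2
        exact hz1_z h2
    have hWeq := Finset.eq_of_subset_of_card_le hW (by rw [hCcard, hWc])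
    have h3 : a ∈ ({1, z, z1, z * z1} : Finset G) := by
      rw [hWeq, hCmem]; exact ⟨ha, hav⟩
    simpa using h3
  -- the finsets L and T
  obtain ⟨Lfin, hLfin⟩ : ∃ L : Finset G, L = Finset.univ.filter (fun l => InL Q v l) := ⟨_, rfl⟩
  have hLmem : ∀ q, q ∈ Lfin ↔ InL Q v q := by
    intro q; rw [hLfin, Finset.mem_filter]; simp
  have hLcard : Lfin.card = 8 := by
    rw [hLfin, ← lv.card, Nat.card_eq_fintype_card, Fintype.card_subtype]
  obtain ⟨Tfin, hTfin⟩ :
      ∃ T : Finset G, T = Finset.univ.filter (fun l => InL Q v l ∧ l * l = z) := ⟨_, rfl⟩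
  have hTmem : ∀ q, q ∈ Tfin ↔ (InL Q v q ∧ q * q = z) := by
    intro q; rw [hTfin, Finset.mem_filter]; simp
  have hTcard : Tfin.card = 4 := by
    have h1 := Finset.card_filter_add_card_filter_not (s := Lfin) (fun l => l * l = 1)
    have h2 : Lfin.filter (fun l => l * l = 1) = Cfin := by
      ext q
      rw [Finset.mem_filter, hLmem, hCmem]
      constructor
      · rintro ⟨hl, hqq⟩
        exact ⟨hl.1, (lv.fix q hl).mp hqq⟩
      · rintro ⟨hq, hqv⟩
        exact ⟨hCL q hq hqv, hcsq q hq hqv⟩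
    have h3 : Lfin.filter (fun l => ¬ l * l = 1) = Tfin := by
      ext q
      rw [Finset.mem_filter, hLmem, hTmem]
      constructor
      · rintro ⟨hl, hqq⟩
        exact ⟨hl, (hsq q hl.1).resolve_left hqq⟩
      · rintro ⟨hl, hqq⟩
        exact ⟨hl, fun h => hz_ne (hqq.symm.trans h)⟩
    rw [h2, h3, hCcard, hLcard] at h1
    omega
  -- the element x' with cm v x' = z1
  have hz1L : InL Q v z1 := hCL z1 hz1Q hz1v
  obtain ⟨x', hx'Q, hx'c⟩ := lv.surj z1 hz1L
  have hx'comm : z1 * x' = x' * z1 := by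
    have h1 : v * x' * v = x' * z1 := by
      have h0 := hx'c
      unfold cm at h0
      exact inv_mul_eq_iff_eq_mul.mp h0
    have h2 : (v * x' * v) * (v * x' * v) = v * (x' * x') * v := by
      have h0 : (v * x' * v⁻¹) * (v * x' * v⁻¹) = v * (x' * x') * v⁻¹ := by group
      rwa [hvinv] at h0
    have h3 : v * (x' * x') * v = x' * x' := by
      rcases hsq x' hx'Q with h | h
      · rw [h, mul_one, hvv]
      · rw [h, hzv, mul_assoc, hvv, mul_one]
    have h4 : x' * (z1 * x' * z1) = x' * x' := by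
      calc x' * (z1 * x' * z1) = (x' * z1) * (x' * z1) := by group
        _ = (v * x' * v) * (v * x' * v) := by rw [h1]
        _ = v * (x' * x') * v := h2
        _ = x' * x' := h3
    have h5 : z1 * x' * z1 = x' := mul_left_cancel h4
    have h6 : z1 * x' = x' * z1⁻¹ := eq_mul_inv_of_mul_eq h5
    rwa [hz1inv] at h6
  have hx'L : ¬ InL Q v x' := by
    intro h
    have h1 : cm v x' = x'⁻¹ * x'⁻¹ := by unfold cm; rw [h.2]
    rcases hsq x' hx'Q with h2 | h2
    · have h3 : z1 = 1 := by rw [← hx'c, h1, ← mul_inv_rev, h2, inv_one]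
      exact hz1_1 h3
    · have h3 : z1 = z := by rw [← hx'c, h1, ← mul_inv_rev, h2, hzinv]
      exact hz1_z h3
  -- subgroups
  let Lsub : Subgroup G :=
    { carrier := {q | InL Q v q}
      mul_mem' := fun {a b} ha hb => lv.mul a b ha hb
      one_mem' := lv.one
      inv_mem' := fun {a} ha => lv.inv a ha }
  have hLsub_mem : ∀ q, q ∈ Lsub ↔ InL Q v q := fun q => Iff.rfl
  have hLsubcard : Nat.card Lsub = 8 := by
    rw [← lv.card]; exact Nat.card_congr (Equiv.subtypeEquivRight hLsub_mem)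
  let D : Subgroup G := Q ⊓ Subgroup.centralizer {z1}
  have hD_mem : ∀ x, x ∈ D ↔ x ∈ Q ∧ x * z1 = z1 * x := by
    intro x
    simp only [D, Subgroup.mem_inf, Subgroup.mem_centralizer_singleton_iff]
  have hLD : Lsub ≤ D := by
    intro l hl
    rw [hD_mem]
    have hl' : InL Q v l := hl
    exact ⟨hl'.1, lv.comm l z1 hl' hz1L⟩
  have hx'D : x' ∈ D := (hD_mem x').mpr ⟨hx'Q, hx'comm.symm⟩
  have hDcard : Nat.card D ≤ 16 := by
    have hle : D ≤ Q := inf_le_left
    have hdvd : Nat.card D ∣ Nat.card Q := Subgroup.card_dvd_of_le hle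
    have hne : Nat.card D ≠ 32 := by
      intro h
      have hDQ : D = Q := Subgroup.eq_of_le_of_card_ge hle (by rw [h, hcardQ])
      have h2 : ∀ y ∈ Q, z1 * y = y * z1 := by
        intro y hy
        have h3 : y ∈ D := by rw [hDQ]; exact hy
        exact (((hD_mem y).mp h3).2).symm
      rcases hcen z1 hz1Q h2 with h | h
      · exact hz1_1 h
      · exact hz1_z h
    rw [hcardQ] at hdvd
    obtain ⟨k, hk⟩ := hdvd
    rcases k with _ | _ | k
    · omega
    · omega
    · have h4 : Nat.card D * 2 ≤ Nat.card D * (k + 1 + 1) := Nat.mul_le_mul_left _ (by omega)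
      rw [← hk] at h4
      omega
  have hdich := nv_index_two_dich Lsub D hLD (by rw [hLsubcard]; omega) x' hx'D hx'L
  -- (b): elements with cm² = z do not commute with z1
  have hb : ∀ x ∈ Q, cm v x * cm v x = z → z1 * x = z * (x * z1) := by
    intro x hxQ hxc
    rcases hcomm z1 hz1Q x hxQ with h | h
    · exfalso
      have hxD : x ∈ D := (hD_mem x).mpr ⟨hxQ, h.symm⟩
      rcases hdich x hxD with hxL | hxL
      · have hxL' : InL Q v x := hxL
        have h1 : cm v x = x⁻¹ * x⁻¹ := by unfold cm; rw [hxL'.2]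
        have h2 : cm v x * cm v x = 1 := by
          rw [h1]
          have h3 : x⁻¹ * x⁻¹ * (x⁻¹ * x⁻¹) = (x * x * (x * x))⁻¹ := by group
          rw [h3, hsqsq x hxQ, inv_one]
        exact hz_ne (hxc.symm.trans h2)
      · obtain ⟨l, hl_def⟩ : ∃ l, l = x'⁻¹ * x := ⟨_, rfl⟩
        rw [← hl_def] at hxL
        have hl : InL Q v l := hxL
        have hm : InL Q v l⁻¹ := lv.inv _ hl
        have hx : x = x' * l := by rw [hl_def]; group
        have h1 : cm v x = l⁻¹ * z1 * l⁻¹ := by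
          rw [hx, nv_cm_mul v x' l hvv, hx'c, hl.2]
        have hc : z1 * l⁻¹ = l⁻¹ * z1 := lv.comm z1 l⁻¹ hz1L hm
        have h2 : cm v x * cm v x = 1 := by
          rw [h1]
          calc l⁻¹ * z1 * l⁻¹ * (l⁻¹ * z1 * l⁻¹)
              = l⁻¹ * (z1 * l⁻¹) * (l⁻¹ * (z1 * l⁻¹)) := by group
            _ = l⁻¹ * (l⁻¹ * z1) * (l⁻¹ * (l⁻¹ * z1)) := by rw [hc]
            _ = l⁻¹ * l⁻¹ * (z1 * l⁻¹) * (l⁻¹ * z1) := by group
            _ = l⁻¹ * l⁻¹ * (l⁻¹ * z1) * (l⁻¹ * z1) := by rw [hc]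
            _ = l⁻¹ * l⁻¹ * l⁻¹ * (z1 * l⁻¹) * z1 := by group
            _ = l⁻¹ * l⁻¹ * l⁻¹ * (l⁻¹ * z1) * z1 := by rw [hc]
            _ = (l⁻¹ * l⁻¹ * (l⁻¹ * l⁻¹)) * (z1 * z1) := by group
            _ = 1 := by rw [hsqsq l⁻¹ hm.1, hz1sq, one_mul]
        exact hz_ne (hxc.symm.trans h2)
    · exact h
  have hw : ∀ x ∈ Q, cm v x * cm v x = z → z1 * x * (z1 * x) = z * (x * x) := by
    intro x hxQ hxc
    have hbx := hb x hxQ hxc
    calc z1 * x * (z1 * x) = z * (x * z1) * (z1 * x) := by rw [hbx]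
      _ = z * (x * (z1 * z1) * x) := by group
      _ = z * (x * x) := by rw [hz1sq, mul_one]
  -- representatives of square 1
  have hx0 : ∀ t, InL Q v t → t * t = z → ∃ x ∈ Q, x * x = 1 ∧ cm v x = t := by
    intro t ht htt
    obtain ⟨x, hxQ, hxc⟩ := lv.surj t ht
    rcases hsq x hxQ with h | h
    · exact ⟨x, hxQ, h, hxc⟩
    · refine ⟨z1 * x, Q.mul_mem hz1Q hxQ, ?_, ?_⟩
      · rw [hw x hxQ (by rw [hxc]; exact htt), h, hzz]
      · rw [nv_cm_comm_mul v z1 x hz1v, hxc]
  -- the count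
  have hgoal : (Finset.univ.filter
      (fun u => u ∈ Q ∧ u * u = 1 ∧ cm v u * cm v u = z)).card = 8 := by
    rw [Finset.card_eq_sum_card_fiberwise (f := cm v) (t := Tfin)]
    · have hfibc : ∀ t ∈ Tfin, ((Finset.univ.filter
          (fun u => u ∈ Q ∧ u * u = 1 ∧ cm v u * cm v u = z)).filter
            (fun a => cm v a = t)).card = 2 := by
        intro t ht
        rw [hTmem] at ht
        obtain ⟨htL, htt⟩ := ht
        obtain ⟨x, hxQ, hxx, hxc⟩ := hx0 t htL htt
        have hxcc : cm v x * cm v x = z := by rw [hxc]; exact htt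
        have hfib : (Finset.univ.filter
            (fun u => u ∈ Q ∧ u * u = 1 ∧ cm v u * cm v u = z)).filter
              (fun a => cm v a = t) = {x, z * x} := by
          ext u
          simp only [Finset.mem_filter, Finset.mem_univ, true_and, Finset.mem_insert,
            Finset.mem_singleton]
          constructor
          · rintro ⟨⟨huQ, huu, -⟩, huc⟩
            have hfib' := (lv.fib x hxQ u huQ).mp (hxc.trans huc.symm)
            have haQ : u * x⁻¹ ∈ Q := Q.mul_mem huQ (Q.inv_mem hxQ)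
            have hu : u = (u * x⁻¹) * x := by group
            have hwx : z1 * x * (z1 * x) = z := by
              rw [hw x hxQ hxcc, hxx, mul_one]
            rcases hCenum _ haQ hfib' with h | h | h | h
            · left
              rw [hu, h, one_mul]
            · right
              rw [hu, h]
            · exfalso
              have hu' : u = z1 * x := by rw [hu, h]
              rw [hu'] at huu
              exact hz_ne (hwx.symm.trans huu)
            · exfalso
              have hu' : u = z * (z1 * x) := by rw [hu, h, mul_assoc]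
              rw [hu', hzmul (z1 * x) (Q.mul_mem hz1Q hxQ)] at huu
              exact hz_ne (hwx.symm.trans huu)
          · rintro (h | h)
            · rw [h]
              exact ⟨⟨hxQ, hxx, hxcc⟩, hxc⟩
            · rw [h]
              refine ⟨⟨Q.mul_mem hzQ hxQ, ?_, ?_⟩, ?_⟩
              · rw [hzmul x hxQ, hxx]
              · rw [nv_cm_comm_mul v z x hzv]; exact hxcc
              · rw [nv_cm_comm_mul v z x hzv, hxc]
        rw [hfib, Finset.card_pair]
        intro h
        exact hz_ne (right_eq_mul.mp h)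
      rw [Finset.sum_congr rfl hfibc, Finset.sum_const, hTcard]
      rfl
    · intro u hu
      have hu' := Finset.mem_filter.mp (Finset.mem_coe.mp hu)
      exact Finset.mem_coe.mpr ((hTmem _).mpr ⟨lv.cm_mem u hu'.2.1, hu'.2.2.2⟩)
  rw [Nat.card_eq_fintype_card, Fintype.card_subtype]
  exact hgoal

/-- [NV] -/
theorem pkgNV (hLV : PkgLV.{u}) : PkgNV.{u} := by
  intro G _ _ H Q K z cfg v hvH hvQ hvv
  have lv := hLV H Q K z cfg v hvH hvQ hvv
  exact pkgNV_aux Q z v
    { z_ne := cfg.z_ne, z_sq := cfg.z_sq, zQ := cfg.zQ,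
      zcQ := fun q hq => cfg.zc q (cfg.QH hq),
      zv := cfg.zc v hvH,
      vv := hvv, sq := cfg.sq, comm := cfg.comm, cen := cfg.cen, cardQ := cfg.cardQ,
      cardC := (cfg.cent v hvH hvQ hvv).1, csq := (cfg.cent v hvH hvQ hvv).2, lv := lv }

end Cfsg.Agent.Lib.Helper80.HJO
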